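import Cfsg.Agent.Eq.Def_Solvable
import Cfsg.Agent.Constrained.HallHigman
import Cfsg.Agent.Chars.Apps.Burnside
import Cfsg.Agent.FourTransOdd.Basic
import Cfsg.Agent.S0514

/-!
Groups in which the elements of even order and the elements of order divisible by an odd prime `p`
have order dividing `2p`: basic facts and the largest invariant `p`-subgroup of a subgroup whose
elements of odd order have exponent `p`.
-/

set_option autoImplicit false

open scoped Pointwise

namespace CfsgLib.CITTwoP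

/-- Elements of even order, or of order divisible by `p`, have order dividing `2p`. -/
structure TwoP (p : ℕ) (G : Type*) [Group G] : Prop where
  prime : p.Prime
  odd : p ≠ 2
  two : ∀ x : G, 2 ∣ orderOf x → x ^ (2 * p) = 1
  self : ∀ x : G, p ∣ orderOf x → x ^ (2 * p) = 1

variable {G : Type*} [Group G] [Finite G] {p : ℕ}

omit [Finite G] in
theorem pow_eq_one_of_odd {x : G} {n : ℕ} (hx : Odd (orderOf x)) (h : x ^ (2 * n) = 1) :
    x ^ n = 1 := by
  rw [← orderOf_dvd_iff_pow_eq_one] at h ⊢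
  exact (Nat.Coprime.dvd_mul_left (Nat.coprime_two_right.2 hx)).1 h

omit [Finite G] in
theorem TwoP.of_injective {H : Type*} [Group H] (h : TwoP p G) (f : H →* G)
    (hf : Function.Injective f) : TwoP p H where
  prime := h.prime
  odd := h.odd
  two x hx := hf (by rw [map_pow, map_one]; exact h.two _ (by rwa [orderOf_injective f hf]))
  self x hx := hf (by rw [map_pow, map_one]; exact h.self _ (by rwa [orderOf_injective f hf]))

omit [Finite G] in
theorem TwoP.odd_prime (h : TwoP p G) : Odd p := h.prime.odd_of_ne_two h.odd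

omit [Finite G] in
theorem TwoP.mul_self_eq_one (h : TwoP p G) {x : G} {k : ℕ} (hx : orderOf x = 2 ^ k) : x * x = 1 := by
  rcases Nat.eq_zero_or_pos k with rfl | hk
  · rw [pow_zero, orderOf_eq_one_iff] at hx; rw [hx, one_mul]
  have h1 := orderOf_dvd_of_pow_eq_one (h.two x (hx ▸ dvd_pow_self 2 hk.ne'))
  rw [hx] at h1
  have h2 : (2 ^ k).Coprime p :=
    ((Nat.coprime_primes Nat.prime_two h.prime).2 (Ne.symm h.odd)).pow_left k
  rw [← pow_two, ← orderOf_dvd_iff_pow_eq_one, hx]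
  exact h2.dvd_of_dvd_mul_right h1

omit [Finite G] in
theorem TwoP.sylow_sq (h : TwoP p G) (T : Sylow 2 G) : ∀ x ∈ (T : Subgroup G), x * x = 1 := by
  intro x hx
  haveI : Fact (Nat.Prime 2) := ⟨Nat.prime_two⟩
  obtain ⟨k, hk⟩ := IsPGroup.iff_orderOf.1 T.2 ⟨x, hx⟩
  exact h.mul_self_eq_one (k := k) (by rwa [Subgroup.orderOf_mk] at hk)

omit [Finite G] in
/-- An element of odd order commuting with an involution has order dividing `p`. -/
theorem TwoP.pow_of_commute_two (h : TwoP p G) {t y : G} (ht : orderOf t = 2) (hty : Commute t y)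
    (hy : Odd (orderOf y)) : y ^ p = 1 := by
  have ho : orderOf (t * y) = 2 * orderOf y := by
    rw [hty.orderOf_mul_eq_mul_orderOf_of_coprime (by rw [ht]; exact Nat.coprime_two_left.2 hy), ht]
  have h1 := h.two _ (ho ▸ dvd_mul_right _ _)
  rw [hty.mul_pow, pow_mul t, show t ^ 2 = 1 by rw [← ht, pow_orderOf_eq_one], one_pow, one_mul] at h1
  exact pow_eq_one_of_odd hy h1

omit [Finite G] in
/-- An element of odd order commuting with an element of order `p` has order dividing `p`. -/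
theorem TwoP.pow_of_commute_self (h : TwoP p G) {d y : G} (hd : d ^ p = 1) (hd1 : d ≠ 1)
    (hdy : Commute d y) (hy : Odd (orderOf y)) : y ^ p = 1 := by
  by_cases hp : p ∣ orderOf y
  · exact pow_eq_one_of_odd hy (h.self y hp)
  haveI : Fact p.Prime := ⟨h.prime⟩
  have hdo : orderOf d = p := orderOf_eq_prime hd hd1
  have ho : orderOf (d * y) = p * orderOf y := by
    rw [hdy.orderOf_mul_eq_mul_orderOf_of_coprime
      (by rw [hdo]; exact h.prime.coprime_iff_not_dvd.2 hp), hdo]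
  have h1 := h.self _ (ho ▸ dvd_mul_right _ _)
  rw [hdy.mul_pow, mul_comm 2 p, pow_mul d, hd, one_pow, one_mul, mul_comm] at h1
  exact pow_eq_one_of_odd hy h1

/-- The elements of odd order of `C` have order dividing `p`. -/
def Narrow (p : ℕ) (C : Subgroup G) : Prop := ∀ x ∈ C, Odd (orderOf x) → x ^ p = 1

omit [Finite G] in
theorem TwoP.narrow_centralizer (h : TwoP p G) {t : G} (ht : orderOf t = 2) :
    Narrow p (Subgroup.centralizer ({t} : Set G)) := fun x hx hxo =>
  h.pow_of_commute_two ht (Subgroup.mem_centralizer_singleton_iff.1 hx).symm hxo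

/-- A `p`-subgroup normalised by `T`. -/
def TInv (p : ℕ) (T X : Subgroup G) : Prop :=
  IsPGroup p X ∧ T ≤ Subgroup.normalizer (X : Set G)

omit [Finite G] in
theorem odd_orderOf_of_isPGroup (hp : p.Prime) (hp2 : p ≠ 2) {X : Subgroup G} (hX : IsPGroup p X)
    {x : G} (hx : x ∈ X) : Odd (orderOf x) := by
  haveI : Fact p.Prime := ⟨hp⟩
  obtain ⟨k, hk⟩ := IsPGroup.iff_orderOf.1 hX ⟨x, hx⟩
  rw [Subgroup.orderOf_mk] at hk
  rw [hk]
  exact (hp.odd_of_ne_two hp2).pow

omit [Finite G] in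
/-- A coset of an odd subgroup fixed by pairwise commuting involutions contains a common fixed
point. -/
theorem exists_fixed_mul (s : Finset G) (hs : ∀ t ∈ s, t * t = 1)
    (hcom : ∀ t ∈ s, ∀ u ∈ s, Commute t u) {N : Subgroup G}
    (hN : ∀ y ∈ N, Odd (orderOf y)) (hsN : ∀ t ∈ s, ∀ y ∈ N, t * y * t ∈ N) {x : G}
    (hx : ∀ t ∈ s, x⁻¹ * t * x * t ∈ N) :
    ∃ w ∈ N, ∀ t ∈ s, Commute t (x * w) := by
  classical
  induction s using Finset.induction_on with
  | empty => exact ⟨1, one_mem _, by simp⟩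
  | @insert a s ha ih =>
    obtain ⟨w, hw, hwc⟩ := ih (fun t h => hs t (Finset.mem_insert_of_mem h))
      (fun t h u h' => hcom t (Finset.mem_insert_of_mem h) u (Finset.mem_insert_of_mem h'))
      (fun t h => hsN t (Finset.mem_insert_of_mem h)) (fun t h => hx t (Finset.mem_insert_of_mem h))
    have ha2 := hs a (Finset.mem_insert_self a s)
    have hai : a⁻¹ = a := inv_eq_of_mul_eq_one_right ha2
    set x' := x * w with hx'
    set z := x'⁻¹ * a * x' * a with hz
    have hzN : z ∈ N := by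
      have e : z = w⁻¹ * (x⁻¹ * a * x * a) * (a * w * a) := by
        rw [hz, hx']; simp [mul_assoc, ← mul_assoc a a, ha2]
      rw [e]
      exact mul_mem (mul_mem (inv_mem hw) (hx a (Finset.mem_insert_self a s)))
        (hsN a (Finset.mem_insert_self a s) w hw)
    have hainv : a * z * a⁻¹ = z⁻¹ := by
      rw [hz, hai]
      simp only [mul_inv_rev, inv_inv, hai, mul_assoc, ha2, mul_one]
    obtain ⟨r, hr, hr2⟩ := FourTransOdd.exists_sqrt (hN z hzN)
    obtain ⟨i, hi⟩ := Subgroup.mem_zpowers_iff.1 hr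
    have hrN : r ∈ N := Subgroup.zpowers_le.2 hzN hr
    refine ⟨w * r, mul_mem hw hrN, fun t ht => ?_⟩
    rw [show x * (w * r) = x' * r by rw [hx', mul_assoc]]
    rcases Finset.mem_insert.1 ht with rfl | hts
    · have har : t * r * t⁻¹ = r⁻¹ := by rw [← hi, ← conj_zpow, hainv, inv_zpow]
      have e1 : t * x' = x' * z * t := by
        rw [hz]; simp [mul_assoc, ha2]
      have e2 : t * r = r⁻¹ * t := mul_inv_eq_iff_eq_mul.1 har
      show t * (x' * r) = x' * r * t
      rw [← mul_assoc, e1, mul_assoc (x' * z), e2, ← mul_assoc, mul_assoc x' z,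
        show z * r⁻¹ = r by rw [← hr2, pow_two, mul_inv_cancel_right]]
    · have htx : Commute t x' := hwc t hts
      have hta : Commute t a := hcom t (Finset.mem_insert_of_mem hts) a (Finset.mem_insert_self a s)
      have htz : Commute t z := ((htx.inv_right.mul_right hta).mul_right htx).mul_right hta
      exact htx.mul_right (hi ▸ htz.zpow_right i)

/-- The image of the `p`-core of `C`. -/
def coreP (p : ℕ) (C : Subgroup G) : Subgroup G := (Cfsg.pCore p ↥C).map C.subtype

omit [Finite G] in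
theorem coreP_le (C : Subgroup G) : coreP p C ≤ C := Subgroup.map_subtype_le _

theorem isPGroup_coreP [Fact p.Prime] (C : Subgroup G) : IsPGroup p (coreP p C) :=
  Constrained.isPGroup_pCore.map _

theorem le_normalizer_coreP [Fact p.Prime] (C : Subgroup G) :
    Subgroup.normalizer (C : Set G) ≤ Subgroup.normalizer (coreP p C : Set G) := by
  intro g hg
  rw [Subgroup.mem_normalizer_iff_map_conj_eq] at hg ⊢
  set e : ↥C ≃* ↥C := (C.equivMapOfInjective _ (MulAut.conj g).injective).trans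
    (MulEquiv.subgroupCongr hg) with he
  have hcomp : (MulAut.conj g).toMonoidHom.comp C.subtype = C.subtype.comp e.toMonoidHom :=
    MonoidHom.ext fun c => rfl
  show (coreP p C).map (MulAut.conj g).toMonoidHom = coreP p C
  rw [coreP, Subgroup.map_map, hcomp, ← Subgroup.map_map, Constrained.pCore_map]

variable (hp : p.Prime) (hp2 : p ≠ 2)
include hp hp2

theorem isSolvable_of_narrow {C : Subgroup G} (hC : Narrow p C) : Group.IsSolvable ↥C := by
  refine Chars.Apps.isSolvable_of_primeFactors_subset ↥C Nat.prime_two hp fun r hr hd => ?_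
  haveI := Fact.mk hr
  obtain ⟨x, hx⟩ := exists_prime_orderOf_dvd_card' (G := ↥C) r hd
  rcases hr.eq_two_or_odd' with h | h
  · exact Or.inl h
  refine Or.inr ((Nat.prime_dvd_prime_iff_eq hr hp).1 ?_)
  have := hC x x.2 (by rw [Subgroup.orderOf_coe, hx]; exact h)
  rw [← hx, ← Subgroup.orderOf_coe]
  exact orderOf_dvd_of_pow_eq_one this

omit [Finite G] in
/-- The Sylow 2-subgroup is commutative. -/
theorem commute_of_sq {T : Subgroup G} (hT : ∀ x ∈ T, x * x = 1) {a b : G} (ha : a ∈ T) (hb : b ∈ T) :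
    Commute a b := by
  have h := hT _ (mul_mem ha hb)
  rw [← eq_inv_iff_mul_eq_one] at h
  rw [mul_inv_rev, inv_eq_of_mul_eq_one_right (hT b hb), inv_eq_of_mul_eq_one_right (hT a ha)] at h
  exact h

/-- `O_p(C)T` is normal in `C`. -/
theorem conj_mem_core_sup (T : Sylow 2 G) (hT : ∀ x ∈ (T : Subgroup G), x * x = 1)
    {C : Subgroup G} (hC : Narrow p C) (hTC : (T : Subgroup G) ≤ C) {c t : G} (hc : c ∈ C)
    (ht : t ∈ (T : Subgroup G)) : c * t * c⁻¹ ∈ coreP p C ⊔ (T : Subgroup G) := by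
  haveI : Fact p.Prime := ⟨hp⟩
  haveI : Fact (Nat.Prime 2) := ⟨Nat.prime_two⟩
  haveI := isSolvable_of_narrow hp hp2 hC
  set O := Cfsg.pCore p ↥C with hO
  set π := QuotientGroup.mk' O with hπ
  have hπs : Function.Surjective π := QuotientGroup.mk'_surjective O
  set TC : Sylow 2 ↥C := T.subtype hTC
  set TB : Sylow 2 (↥C ⧸ O) := TC.mapSurjective hπs with hTB
  have hodd : Cfsg.pPrimeCore 2 (↥C ⧸ O) = ⊥ := by
    have hP : IsPGroup p (Cfsg.pPrimeCore 2 (↥C ⧸ O)) := by
      intro y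
      refine ⟨1, Subtype.ext ?_⟩
      rw [pow_one, Subgroup.coe_pow, Subgroup.coe_one]
      obtain ⟨x, hx⟩ := hπs (y : ↥C ⧸ O)
      have hyo : Odd (orderOf (y : ↥C ⧸ O)) := by
        rw [Subgroup.orderOf_coe]
        exact Odd.of_dvd_nat (Nat.not_even_iff_odd.1 fun h =>
          Constrained.pPrimeCore_not_dvd (p := 2) (even_iff_two_dvd.1 h)) (orderOf_dvd_natCard y)
      obtain ⟨a, m, hm, ham⟩ := Nat.exists_eq_two_pow_mul_odd (orderOf_pos x).ne'
      have hxo : orderOf (x ^ (2 ^ a)) = m := by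
        rw [orderOf_pow' _ (by positivity), ham, Nat.gcd_eq_right (dvd_mul_right _ _),
          Nat.mul_div_cancel_left _ (by positivity)]
      have h1 : (x ^ (2 ^ a)) ^ p = 1 := Subtype.ext (by
        push_cast
        exact hC _ ((C.pow_mem x.2 _)) (by rw [← Subgroup.coe_pow, Subgroup.orderOf_coe, hxo]; exact hm))
      have h2 : ((y : ↥C ⧸ O) ^ p) ^ (2 ^ a) = 1 := by
        rw [← pow_mul, mul_comm, pow_mul, ← hx, ← map_pow, ← map_pow, h1, map_one]
      rw [← orderOf_eq_one_iff]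
      exact Nat.eq_one_of_dvd_coprimes ((Nat.coprime_two_right.2 hyo).pow_right a)
        (orderOf_pow_dvd p) (orderOf_dvd_of_pow_eq_one h2)
    have hle := Constrained.le_pCore (Cfsg.pPrimeCore_normal 2 (↥C ⧸ O)) hP
    rw [Constrained.pCore_quotient_pCore, le_bot_iff] at hle
    exact hle
  have hcen := Constrained.centralizer_pCore_le (p := 2)
    (Constrained.isPSolvable_of_isSolvable (G := ↥C ⧸ O)) hodd
  haveI hn2 : (Cfsg.pCore 2 (↥C ⧸ O)).Normal := inferInstance
  have hle : Cfsg.pCore 2 (↥C ⧸ O) ≤ (TB : Subgroup (↥C ⧸ O)) := by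
    have h1 := Constrained.isPGroup_pCore (G := ↥C ⧸ O) (p := 2)
    have := h1.to_sup_of_normal_left TB.2
    rw [← TB.3 this le_sup_right]
    exact le_sup_left
  have hTBc : ∀ a ∈ (TB : Subgroup (↥C ⧸ O)), ∀ b ∈ (TB : Subgroup (↥C ⧸ O)), Commute a b := by
    rintro _ ⟨a, ha, rfl⟩ _ ⟨b, hb, rfl⟩
    exact (show Commute a b from Subtype.ext (commute_of_sq hp hp2 hT ha hb)).map π
  have heq : Cfsg.pCore 2 (↥C ⧸ O) = (TB : Subgroup (↥C ⧸ O)) :=
    le_antisymm hle fun x hx => hcen (Subgroup.mem_centralizer_iff.2 fun y hy =>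
      (hTBc y (hle hy) x hx).eq)
  have hmem : π (⟨c, hc⟩ * ⟨t, hTC ht⟩ * ⟨c, hc⟩⁻¹) ∈ (TB : Subgroup (↥C ⧸ O)) := by
    rw [← heq, map_mul, map_mul, map_inv]
    refine hn2.conj_mem _ ?_ _
    rw [heq]
    exact ⟨⟨t, hTC ht⟩, ht, rfl⟩
  have hmem' : (⟨c, hc⟩ * ⟨t, hTC ht⟩ * ⟨c, hc⟩⁻¹ : ↥C) ∈ (TC : Subgroup ↥C) ⊔ O := by
    have h := (Subgroup.comap_map_eq π (TC : Subgroup ↥C))
    rw [QuotientGroup.ker_mk'] at h
    rw [← h]
    exact hmem
  have := Subgroup.mem_map_of_mem C.subtype hmem'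
  rw [Subgroup.map_sup, sup_comm] at this
  refine SetLike.le_def.1 (sup_le_sup le_rfl ?_) this
  rw [show (TC : Subgroup ↥C) = (T : Subgroup G).subgroupOf C from rfl, Subgroup.subgroupOf_map_subtype]
  exact inf_le_left

theorem le_normalizer_core {C : Subgroup G} {x : G} (hx : x ∈ C) :
    x ∈ Subgroup.normalizer (coreP p C : Set G) :=
  haveI : Fact p.Prime := ⟨hp⟩
  le_normalizer_coreP C (Subgroup.le_normalizer hx)

/-- An element of odd order of `O_p(C)T` lies in `O_p(C)`. -/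
theorem mem_core_of_odd (T : Sylow 2 G) {C : Subgroup G} (hTC : (T : Subgroup G) ≤ C) {y : G}
    (hy : y ∈ coreP p C ⊔ (T : Subgroup G)) (hyo : Odd (orderOf y)) : y ∈ coreP p C := by
  haveI : Fact (Nat.Prime 2) := ⟨Nat.prime_two⟩
  have hTn : (T : Subgroup G) ≤ Subgroup.normalizer (coreP p C : Set G) :=
    fun s hs => le_normalizer_core hp hp2 (hTC hs)
  rw [← SetLike.mem_coe, Subgroup.coe_mul_of_right_le_normalizer_left _ _ hTn] at hy
  obtain ⟨k, hk, s, hs, rfl⟩ := hy
  set H := Subgroup.normalizer (coreP p C : Set G) with hH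
  have hkH : k ∈ H := Subgroup.le_normalizer hk
  haveI : ((coreP p C).subgroupOf H).Normal :=
    Subgroup.normal_subgroupOf_of_le_normalizer le_rfl
  set q := QuotientGroup.mk' ((coreP p C).subgroupOf H)
  set e : ↥H := ⟨k * s, mul_mem hkH (hTn hs)⟩
  set e' : ↥H := ⟨s, hTn hs⟩
  have hqe : q e = q e' := by
    have : q ⟨k, hkH⟩ = 1 := (QuotientGroup.eq_one_iff _).2 hk
    rw [show e = ⟨k, hkH⟩ * e' from rfl, map_mul, this, one_mul]
  have h1 : orderOf (q e) ∣ orderOf (k * s) :=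
    (orderOf_map_dvd q e).trans (dvd_of_eq (Subgroup.orderOf_mk _ _))
  obtain ⟨i, hi⟩ := IsPGroup.iff_orderOf.1 T.2 ⟨s, hs⟩
  rw [Subgroup.orderOf_mk] at hi
  have h2 : orderOf (q e) ∣ 2 ^ i := by
    rw [hqe, ← hi]
    exact (orderOf_map_dvd q e').trans (dvd_of_eq (Subgroup.orderOf_mk _ _))
  have h3 : q e = 1 := orderOf_eq_one_iff.1
    (Nat.eq_one_of_dvd_coprimes ((Nat.coprime_two_right.2 hyo).pow_right i) h1 h2)
  have h4 : k * s ∈ coreP p C := (QuotientGroup.eq_one_iff e).1 h3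
  exact h4

/-- Every element of `C` is a translate by `O_p(C)` of an element normalising `T`. -/
theorem exists_core_mul_mem_normalizer (T : Sylow 2 G) (hT : ∀ x ∈ (T : Subgroup G), x * x = 1)
    {C : Subgroup G} (hC : Narrow p C) (hTC : (T : Subgroup G) ≤ C) {c : G} (hc : c ∈ C) :
    ∃ k ∈ coreP p C, k * c ∈ Subgroup.normalizer ((T : Subgroup G) : Set G) := by
  haveI : Fact (Nat.Prime 2) := ⟨Nat.prime_two⟩
  set A := coreP p C ⊔ (T : Subgroup G) with hA
  set T' : Sylow 2 G := c • T with hT'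
  have hTA : (T : Subgroup G) ≤ A := le_sup_right
  have hT'A : (T' : Subgroup G) ≤ A := by
    rintro _ ⟨t, ht, rfl⟩
    exact conj_mem_core_sup hp hp2 T hT hC hTC hc ht
  obtain ⟨g, hg⟩ := MulAction.exists_smul_eq (↥A) (T'.subtype hT'A) (T.subtype hTA)
  have hg' : (g : G) • T' = T := by
    refine Sylow.subtype_injective (hP := ?_) (hQ := hTA) (N := A) ?_
    · exact fun x hx => by
        obtain ⟨y, hy, rfl⟩ := hx
        exact mul_mem (mul_mem g.2 (hT'A hy)) (inv_mem g.2)
    · rw [← hg, Sylow.smul_subtype]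
      rfl
  have hgc : (g : G) * c ∈ Subgroup.normalizer ((T : Subgroup G) : Set G) := by
    refine Sylow.smul_eq_iff_mem_normalizer.1 ?_
    rw [mul_smul]
    exact hg'
  have hTn : (T : Subgroup G) ≤ Subgroup.normalizer (coreP p C : Set G) :=
    fun s hs => le_normalizer_core hp hp2 (hTC hs)
  have hgA : (g : G) ∈ ((T : Subgroup G) : Set G) * (coreP p C : Set G) := by
    rw [← Subgroup.coe_mul_of_left_le_normalizer_right _ _ hTn, sup_comm]
    exact g.2
  obtain ⟨s, hs, k, hk, hsk⟩ := hgA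
  refine ⟨k, hk, ?_⟩
  have := mul_mem (inv_mem (Subgroup.le_normalizer hs : s ∈ Subgroup.normalizer ((T : Subgroup G) : Set G))) hgc
  rwa [← hsk, mul_assoc s, inv_mul_cancel_left] at this

omit hp2 in
/-- The elements of odd order of `C` centralising `T` form a `p`-subgroup. -/
theorem exists_central_part (T : Sylow 2 G) (hT : ∀ x ∈ (T : Subgroup G), x * x = 1)
    {C : Subgroup G} (hC : Narrow p C) (hTC : (T : Subgroup G) ≤ C) :
    ∃ Q : Subgroup G, Q ≤ C ∧ IsPGroup p Q ∧ (T : Subgroup G) ≤ Subgroup.centralizer (Q : Set G) ∧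
      ∀ x ∈ C, Odd (orderOf x) → (∀ t ∈ (T : Subgroup G), Commute t x) → x ∈ Q := by
  haveI : Fact (Nat.Prime 2) := ⟨Nat.prime_two⟩
  set D := C ⊓ Subgroup.centralizer ((T : Subgroup G) : Set G) with hD
  have hTD : (T : Subgroup G) ≤ D := le_inf hTC fun a ha => Subgroup.mem_centralizer_iff.2
    fun b hb => by
      have h := hT _ (mul_mem hb ha)
      rw [← eq_inv_iff_mul_eq_one, mul_inv_rev, inv_eq_of_mul_eq_one_right (hT a ha),
        inv_eq_of_mul_eq_one_right (hT b hb)] at h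
      exact h
  obtain ⟨N, hN, hNodd, k, hk⟩ := Cfsg.Agent.S0514.burnside (T.subtype hTD) (by
    intro g _
    rw [Subgroup.mem_centralizer_iff]
    intro t ht
    exact Subtype.ext (Subgroup.mem_centralizer_iff.1 g.2.2 (t : G) ht))
  refine ⟨N.map D.subtype, (Subgroup.map_subtype_le _).trans inf_le_left, ?_, ?_, ?_⟩
  · rintro ⟨_, x, hx, rfl⟩
    refine ⟨1, Subtype.ext ?_⟩
    rw [pow_one]
    exact hC _ x.2.1 (by
      show Odd (orderOf (x : G))
      rw [Subgroup.orderOf_coe]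
      exact Odd.of_dvd_nat hNodd (N.orderOf_dvd_natCard hx))
  · intro t ht
    rw [Subgroup.mem_centralizer_iff]
    rintro _ ⟨x, -, rfl⟩
    exact (Subgroup.mem_centralizer_iff.1 x.2.2 t ht).symm
  · intro x hx hxo hcx
    have hxD : x ∈ D := ⟨hx, Subgroup.mem_centralizer_iff.2 fun t ht => (hcx t ht).eq⟩
    refine ⟨⟨x, hxD⟩, ?_, rfl⟩
    haveI := hN
    have h1 : orderOf (QuotientGroup.mk' N ⟨x, hxD⟩) ∣ orderOf x :=
      (orderOf_map_dvd _ _).trans (dvd_of_eq (Subgroup.orderOf_mk _ _))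
    have h2 : orderOf (QuotientGroup.mk' N ⟨x, hxD⟩) ∣ 2 ^ k := hk ▸ orderOf_dvd_natCard _
    exact (QuotientGroup.eq_one_iff _).1 (orderOf_eq_one_iff.1
      (Nat.eq_one_of_dvd_coprimes ((Nat.coprime_two_right.2 hxo).pow_right k) h1 h2))

/-- An invariant `p`-subgroup containing all the invariant `p`-subgroups of `H`, where `H`
normalises `C ≤ H`. -/
theorem exists_top (T : Sylow 2 G) (hT : ∀ x ∈ (T : Subgroup G), x * x = 1)
    {C H : Subgroup G} (hC : Narrow p C) (hTC : (T : Subgroup G) ≤ C) (hCH : C ≤ H)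
    (hHC : H ≤ Subgroup.normalizer (C : Set G))
    (hHT : Narrow p (H ⊓ Subgroup.centralizer ((T : Subgroup G) : Set G))) :
    ∃ L : Subgroup G, L ≤ H ∧ TInv p (T : Subgroup G) L ∧ coreP p C ≤ L ∧
      ∀ X : Subgroup G, TInv p (T : Subgroup G) X → X ≤ H → X ≤ L := by
  classical
  haveI : Fact p.Prime := ⟨hp⟩
  haveI : Fact (Nat.Prime 2) := ⟨Nat.prime_two⟩
  have hTc : (T : Subgroup G) ≤ Subgroup.centralizer ((T : Subgroup G) : Set G) := fun a ha =>
    Subgroup.mem_centralizer_iff.2 fun b hb => (commute_of_sq hp hp2 hT hb ha).eq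
  obtain ⟨Q, hQC, hQp, hTQ, hQmem⟩ :=
    exists_central_part hp T hT hHT (le_inf (hTC.trans hCH) hTc)
  have hQn : Q ≤ Subgroup.normalizer (coreP p C : Set G) := fun x hx =>
    le_normalizer_coreP C (hHC (hQC hx).1)
  refine ⟨coreP p C ⊔ Q, sup_le ((coreP_le C).trans hCH) (hQC.trans inf_le_left),
    ⟨(isPGroup_coreP C).to_sup_of_normal_left' hQp hQn, fun t ht => ?_⟩, le_sup_left,
    fun X hX hXH => ?_⟩
  · rw [Subgroup.mem_normalizer_iff_map_conj_eq, Subgroup.map_sup]
    congr 1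
    · exact Subgroup.mem_normalizer_iff_map_conj_eq.1 (le_normalizer_core hp hp2 (hTC ht))
    · exact Subgroup.mem_normalizer_iff_map_conj_eq.1
        (Subgroup.centralizer_le_normalizer _ (hTQ ht))
  haveI := Fintype.ofFinite ↥(T : Subgroup G)
  set s : Finset G := (Finset.univ : Finset ↥(T : Subgroup G)).image Subtype.val with hs
  have hmem : ∀ t, t ∈ s ↔ t ∈ (T : Subgroup G) := fun t => by simp [hs]
  have hTsq : ∀ t ∈ s, t * t = 1 := fun t ht => hT t ((hmem t).1 ht)
  have hTcom : ∀ t ∈ s, ∀ u ∈ s, Commute t u := fun t ht u hu =>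
    commute_of_sq hp hp2 hT ((hmem t).1 ht) ((hmem u).1 hu)
  have hinv : ∀ t ∈ (T : Subgroup G), t⁻¹ = t := fun t ht => inv_eq_of_mul_eq_one_right (hT t ht)
  have hconj : ∀ t ∈ (T : Subgroup G), ∀ y ∈ X, t * y * t ∈ X := fun t ht y hy => by
    have := (Subgroup.mem_normalizer_iff.1 (hX.2 ht) y).1 hy
    rwa [hinv t ht] at this
  have hcomX : ∀ x ∈ X, ∀ t ∈ (T : Subgroup G), x⁻¹ * t * x * t ∈ X := fun x hx t ht => by
    simpa only [mul_assoc] using mul_mem (inv_mem hx) (hconj t ht x hx)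
  have hodd : ∀ y ∈ X, Odd (orderOf y) := fun y hy => odd_orderOf_of_isPGroup hp hp2 hX.1 hy
  -- a fixed translate lies in the central part
  have key : ∀ (N : Subgroup G), N ≤ X → (∀ t ∈ (T : Subgroup G), ∀ y ∈ N, t * y * t ∈ N) →
      ∀ x ∈ X, (∀ t ∈ (T : Subgroup G), x⁻¹ * t * x * t ∈ N) → N ≤ coreP p C ⊔ Q →
        x ∈ coreP p C ⊔ Q := by
    intro N hNX hTN x hx hxN hNL
    obtain ⟨w, hw, hwc⟩ := exists_fixed_mul s hTsq hTcom (fun y hy => hodd y (hNX hy))
      (fun t ht => hTN t ((hmem t).1 ht)) (fun t ht => hxN t ((hmem t).1 ht))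
    have hxw : x * w ∈ X := mul_mem hx (hNX hw)
    have hq : x * w ∈ Q := hQmem _ ⟨hXH hxw, Subgroup.mem_centralizer_iff.2 fun t ht =>
      (hwc t ((hmem t).2 ht)).eq⟩ (hodd _ hxw) fun t ht => hwc t ((hmem t).2 ht)
    rw [show x = x * w * w⁻¹ by rw [mul_inv_cancel_right]]
    exact mul_mem (Subgroup.mem_sup_right hq) (inv_mem (hNL hw))
  have hXC : X ⊓ C ≤ coreP p C ⊔ Q := by
    intro y hy
    refine key (X ⊓ coreP p C) inf_le_left (fun t ht z hz => ⟨hconj t ht z hz.1, ?_⟩) y hy.1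
      (fun t ht => ⟨hcomX y hy.1 t ht, mem_core_of_odd hp hp2 T hTC ?_ (hodd _ (hcomX y hy.1 t ht))⟩)
      (inf_le_right.trans le_sup_left)
    · have := (Subgroup.mem_normalizer_iff.1 (le_normalizer_core hp hp2 (hTC ht)) z).1 hz.2
      rwa [hinv t ht] at this
    · have h1 := conj_mem_core_sup hp hp2 T hT hC hTC (inv_mem hy.2) ht
      rw [inv_inv] at h1
      exact mul_mem h1 (Subgroup.mem_sup_right ht)
  intro x hx
  refine key (X ⊓ C) inf_le_left (fun t ht z hz => ⟨hconj t ht z hz.1, ?_⟩) x hx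
    (fun t ht => ⟨hcomX x hx t ht, mul_mem ?_ (hTC ht)⟩) hXC
  · exact mul_mem (mul_mem (hTC ht) hz.2) (hTC ht)
  · have := (Subgroup.mem_normalizer_iff.1 (hHC (hXH (inv_mem hx))) t).1 (hTC ht)
    rwa [inv_inv] at this

end CfsgLib.CITTwoP
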