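import Mathlib

/-!
If the norm of `⟨y⟩` vanishes on an abelian group `V` and `y` acts without fixed points on a finite
group `K`, then `K` fixes the `|K|`-th powers.
-/

set_option autoImplicit false

namespace CfsgLib.CITTwoP

/-- The Frobenius kernel fixes the `|K|`-th powers if the norm of the complement vanishes. -/
theorem pow_card_fixed_of_norm {V X : Type*} [CommGroup V] [Group X] (f : X →* MulAut V)
    (K : Subgroup X) [Finite K] (y : X) (hy : ∀ k ∈ K, y * k * y⁻¹ ∈ K) (n : ℕ) (hn : 0 < n)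
    (hfix : ∀ j, 0 < j → j < n → ∀ k ∈ K, Commute (y ^ j) k → k = 1)
    (hnorm : ∀ v : V, ∏ j ∈ Finset.range n, f (y ^ j) v = 1) (v : V) {k₀ : X} (hk₀ : k₀ ∈ K) :
    f k₀ (v ^ Nat.card K) = v ^ Nat.card K := by
  classical
  have := Fintype.ofFinite K
  have hyj : ∀ (j : ℕ), ∀ k ∈ K, y ^ j * k * (y ^ j)⁻¹ ∈ K := by
    intro j
    induction j with
    | zero => intro k hk; simpa using hk
    | succ j ih =>
      intro k hk
      have := hy _ (ih k hk)
      rw [pow_succ', mul_inv_rev]
      simpa [mul_assoc] using this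
  set A : ℕ → V := fun j => ∏ k : K, f ((k : X) * y ^ j * (k : X)⁻¹) v with hA
  have hprod : ∏ j ∈ Finset.range n, A j = 1 := by
    simp only [hA]
    rw [Finset.prod_comm]
    refine Finset.prod_eq_one fun k _ => ?_
    have h1 := congrArg (f (k : X)) (hnorm (f (k : X)⁻¹ v))
    rw [map_prod, map_one] at h1
    rw [← h1]
    refine Finset.prod_congr rfl fun j _ => ?_
    simp only [map_mul, MulAut.mul_apply]
  have hfixA : ∀ j, 0 < j → j < n → f k₀ (A j) = A j := by
    intro j hj hjn
    set φ : K → K := fun k => ⟨(k : X) * y ^ j * (k : X)⁻¹ * (y ^ j)⁻¹, by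
      have := mul_mem k.2 (hyj j _ (inv_mem k.2))
      simpa [mul_assoc] using this⟩ with hφ
    have hinj : Function.Injective φ := by
      intro a b hab
      have e : (a : X) * y ^ j * (a : X)⁻¹ = (b : X) * y ^ j * (b : X)⁻¹ :=
        mul_right_cancel (congrArg Subtype.val hab)
      have := hfix j hj hjn ((b : X)⁻¹ * a) (mul_mem (inv_mem b.2) a.2) (by
        show y ^ j * ((b : X)⁻¹ * a) = (b : X)⁻¹ * a * y ^ j
        calc y ^ j * ((b : X)⁻¹ * a) = (b : X)⁻¹ * ((b : X) * y ^ j * (b : X)⁻¹) * a := by group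
          _ = (b : X)⁻¹ * ((a : X) * y ^ j * (a : X)⁻¹) * a := by rw [e]
          _ = _ := by group)
      exact Subtype.ext (inv_mul_eq_one.1 this).symm
    have hAj : A j = ∏ k : K, f (k : X) (f (y ^ j) v) := by
      rw [← Fintype.prod_bijective φ (Finite.injective_iff_bijective.1 hinj)
        (fun k : K => f ((k : X) * y ^ j * (k : X)⁻¹) v) _ fun k => ?_]
      show f ((k : X) * y ^ j * (k : X)⁻¹) v = f (φ k : X) (f (y ^ j) v)
      rw [← MulAut.mul_apply, ← map_mul]
      simp [hφ, mul_assoc]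
    rw [hAj, map_prod]
    refine Fintype.prod_bijective (fun k : K => (⟨k₀, hk₀⟩ : K) * k) (Group.mulLeft_bijective _) _ _
      fun k => ?_
    show f k₀ (f (k : X) _) = f ((k₀ : X) * k) _
    rw [map_mul, MulAut.mul_apply]
  obtain ⟨m, rfl⟩ := Nat.exists_eq_add_of_le' hn
  rw [Finset.prod_range_succ'] at hprod
  have h0 : A 0 = v ^ Nat.card K := by
    simp [hA, Nat.card_eq_fintype_card]
  rw [h0, mul_eq_one_iff_inv_eq] at hprod
  rw [← hprod, map_inv, map_prod]
  congr 1
  exact Finset.prod_congr rfl fun j hj =>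
    hfixA _ j.succ_pos (by have := Finset.mem_range.1 hj; omega)

end CfsgLib.CITTwoP
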