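import Cfsg.Agent.CITTwoP.Basic
import Cfsg.Agent.Signalizer.Hyperplane
import Cfsg.Agent.Coprime.Sylow

/-!
Transitivity for maximal `T`-invariant `p`-subgroups, `T` an elementary abelian Sylow 2-subgroup of
a group in which the elements of even order and those of order divisible by `p` have order dividing
`2p`: two of them are equal if `|T| ≥ 8` or if they meet non-trivially.
-/

set_option autoImplicit false

namespace CfsgLib.CITTwoP

variable {G : Type*} [Group G] [Finite G] {p : ℕ}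

/-- In a four group permuted cyclically by `y`, the centraliser of one involution in a subgroup `D`
of odd order with `(vy)³ = 1` for all `v ∈ D` is centralised by the others. -/
theorem commute_of_cycle {D : Subgroup G} (hD : ∀ x ∈ D, Odd (orderOf x)) {a b y : G}
    (ha : a * a = 1) (hb : b * b = 1) (hab : Commute a b) (haD : ∀ x ∈ D, a * x * a ∈ D)
    (hbD : ∀ x ∈ D, b * x * b ∈ D) (hyD : ∀ x ∈ D, y * x * y⁻¹ ∈ D)
    (hya : y * a * y⁻¹ = b) (hyb : y * b * y⁻¹ = a * b) (hy : y ^ 3 = 1)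
    (hv : ∀ v ∈ D, (v * y) ^ 3 = 1) {x : G} (hx : x ∈ D) : Commute a x ∧ Commute b x := by
  have hai : a⁻¹ = a := inv_eq_of_mul_eq_one_right ha
  have hbi : b⁻¹ = b := inv_eq_of_mul_eq_one_right hb
  set σ := MulAut.conj y with hσ
  have hσa : σ a = b := hya
  have hσb : σ b = a * b := hyb
  have hσab : σ (a * b) = a := by
    rw [map_mul, hσa, hσb, ← mul_assoc, ← hab.eq, mul_assoc, hb, mul_one]
  have hσD : ∀ x ∈ D, σ x ∈ D := hyD
  -- an element fixed by `a` and inverted by `b` is trivial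
  have hzero : ∀ v ∈ D, MulAut.conj a v = v → MulAut.conj b v = v⁻¹ → v = 1 := by
    intro v hvD hva hvb
    have hrel : v * σ v * σ (σ v) = 1 := by
      have h3 := hv v hvD
      have e : (v * y) ^ 3 = v * σ v * σ (σ v) * y ^ 3 := by
        simp only [hσ, MulAut.conj_apply, pow_succ, pow_zero, one_mul]; group
      rwa [e, hy, mul_one] at h3
    have f : ∀ g z : G, MulAut.conj (σ g) (σ z) = σ (MulAut.conj g z) := fun g z => by
      simp only [MulAut.conj_apply, map_mul, map_inv]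
    have f1 : MulAut.conj b (σ v) = σ v := by rw [← hσa, f, hva]
    have f2 : MulAut.conj (a * b) (σ v) = (σ v)⁻¹ := by rw [← hσb, f, hvb, map_inv]
    have f3 : MulAut.conj a (σ v) = (σ v)⁻¹ := by rwa [map_mul, MulAut.mul_apply, f1] at f2
    have f4 : MulAut.conj (a * b) (σ (σ v)) = σ (σ v) := by rw [← hσb, f, f1]
    have f5 : MulAut.conj a (σ (σ v)) = (σ (σ v))⁻¹ := by rw [← hσab, f, f2, map_inv]
    have f6 : MulAut.conj b (σ (σ v)) = (σ (σ v))⁻¹ := by
      rw [show b = a * (a * b) by rw [← mul_assoc, ha, one_mul], map_mul, MulAut.mul_apply, f4, f5]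
    have r1 := congrArg (MulAut.conj b) hrel
    rw [map_mul, map_mul, map_one, hvb, f1, f6] at r1
    have s1 : σ v = v * σ (σ v) := by
      rw [mul_inv_eq_one] at r1
      rw [← r1, mul_inv_cancel_left]
    have s2 : σ (σ v) * σ (σ v) = (v * v)⁻¹ := by
      generalize hw : σ (σ v) = w at hrel s1 ⊢
      rw [s1] at hrel
      refine eq_inv_of_mul_eq_one_right ?_
      simpa [mul_assoc] using hrel
    have r2 := congrArg (MulAut.conj a) s2
    rw [map_mul, f5, map_inv, map_mul, hva, ← mul_inv_rev, inv_inj, s2] at r2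
    -- now `(v * v)⁻¹ = v * v`
    have h4 : v ^ 4 = 1 := by
      have := eq_inv_iff_mul_eq_one.1 r2.symm
      rw [← this]; simp [pow_succ, mul_assoc]
    rw [← orderOf_eq_one_iff]
    exact Nat.eq_one_of_dvd_coprimes ((Nat.coprime_two_right.2 (hD v hvD)).pow_right 2) dvd_rfl
      (orderOf_dvd_of_pow_eq_one (by rw [show 2 ^ 2 = 4 by norm_num]; exact h4))
  have hfix : ∀ w ∈ D, Commute a w → Commute b w := by
    intro w hw haw
    have hz : w⁻¹ * b * w * b = 1 := by
      refine hzero _ ?_ ?_ ?_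
      · simpa only [mul_assoc] using mul_mem (inv_mem hw) (hbD w hw)
      · rw [MulAut.conj_apply, mul_inv_eq_iff_eq_mul]
        exact (((haw.inv_right.mul_right hab).mul_right haw).mul_right hab).eq
      · rw [MulAut.conj_apply]
        simp only [mul_inv_rev, inv_inv, hbi, mul_assoc, hb, mul_one]
    show b * w = w * b
    calc b * w = w * (w⁻¹ * b * w * b) * b := by simp [mul_assoc, hb]
      _ = w * b := by rw [hz, mul_one]
  have hτD : ∀ w ∈ D, y⁻¹ * w * y ∈ D := fun w hw => by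
    have h2 : y⁻¹ = y * y := inv_eq_of_mul_eq_one_left (by rw [← hy]; simp [pow_succ, mul_assoc])
    have h3 := hyD _ (hyD w hw)
    rw [show y⁻¹ * w * y = y⁻¹ * w * (y⁻¹)⁻¹ by rw [inv_inv], h2]
    simpa only [mul_inv_rev, mul_assoc] using h3
  have pull : ∀ (g w : G), Commute (σ g) w → Commute g (y⁻¹ * w * y) := fun g w h => by
    have := h.map σ.symm.toMonoidHom
    simp only [MulEquiv.coe_toMonoidHom, MulEquiv.symm_apply_apply] at this
    rwa [show σ.symm w = y⁻¹ * w * y by simp [hσ, MulAut.conj_symm_apply]] at this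
  have push : ∀ (g w : G), Commute g (y⁻¹ * w * y) → Commute (σ g) w := fun g w h => by
    have := h.map σ.toMonoidHom
    simpa [hσ, MulAut.conj_apply, mul_assoc] using this
  have hfixb : ∀ w ∈ D, Commute b w → Commute a w ∧ Commute b w := by
    intro w hw hbw
    have h1 := hfix _ (hτD w hw) (pull a w (by rwa [hσa]))
    have h2 : Commute (a * b) w := hσb ▸ push b w h1
    refine ⟨?_, hbw⟩
    have := h2.mul_left hbw
    rwa [mul_assoc, hb, mul_one] at this
  have hK : D ≤ Subgroup.centralizer ({a, b} : Set G) := by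
    have mk : ∀ w : G, Commute a w → Commute b w → w ∈ Subgroup.centralizer ({a, b} : Set G) :=
      fun w h1 h2 => Subgroup.mem_centralizer_iff.2 fun g hg => by
        rcases hg with rfl | hg
        · exact h1.eq
        · rw [Set.mem_singleton_iff] at hg; subst hg; exact h2.eq
    refine FourTransOdd.le_of_four_group hD ha hb hab haD hbD
      (fun w hw h => mk w h (hfix w hw h))
      (fun w hw h => mk w (hfixb w hw h).1 h) fun w hw h => ?_
    obtain ⟨h1, h2⟩ := hfixb _ (hτD w hw) (pull b w (by rwa [hσb]))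
    exact mk w (by rw [← hσab]; exact push _ w (h1.mul_left h2)) (hσa ▸ push a w h1)
  exact ⟨(Subgroup.mem_centralizer_iff.1 (hK hx) a (Or.inl rfl)),
    (Subgroup.mem_centralizer_iff.1 (hK hx) b (Or.inr rfl))⟩

variable (h : TwoP p G) (T : Sylow 2 G)
include h

theorem card_sylow_two_pow : ∃ k, Nat.card (T : Subgroup G) = 2 ^ k :=
  haveI : Fact (Nat.Prime 2) := ⟨Nat.prime_two⟩
  IsPGroup.iff_card.1 T.2

theorem isElementaryAbelian_sylow : Cfsg.IsElementaryAbelian 2 (T : Subgroup G) :=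
  ⟨⟨⟨fun a b => Subtype.ext (commute_of_sq h.prime h.odd (h.sylow_sq T) a.2 b.2).eq⟩⟩,
    fun x hx => by rw [pow_two]; exact h.sylow_sq T x hx⟩

theorem orderOf_two_of_mem {t : G} (ht : t ∈ (T : Subgroup G)) (ht1 : t ≠ 1) : orderOf t = 2 :=
  orderOf_eq_prime (by rw [pow_two]; exact h.sylow_sq T t ht) ht1

theorem exists_ne_one_of_dvd_two (h4 : 4 ≤ Nat.card (T : Subgroup G)) {U : Subgroup G}
    (hU : U.relIndex (T : Subgroup G) ∣ 2) : ∃ u ∈ U, u ≠ 1 := by
  refine U.bot_or_exists_ne_one.resolve_left ?_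
  rintro rfl
  rw [Subgroup.relIndex_bot_left] at hU
  have := Nat.le_of_dvd two_pos hU
  omega

theorem sylow_le_centralizer_singleton {t : G} (ht : t ∈ (T : Subgroup G)) :
    (T : Subgroup G) ≤ Subgroup.centralizer ({t} : Set G) := fun s hs =>
  Subgroup.mem_centralizer_singleton_iff.2 (commute_of_sq h.prime h.odd (h.sylow_sq T) hs ht).eq

theorem narrow_of_le_centralizer_sylow (h4 : 4 ≤ Nat.card (T : Subgroup G)) (H : Subgroup G) :
    Narrow p (H ⊓ Subgroup.centralizer ((T : Subgroup G) : Set G)) := by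
  intro x hx hxo
  obtain ⟨t, ht, ht1⟩ := exists_ne_one_of_dvd_two h T h4 (U := (T : Subgroup G))
    (by rw [Subgroup.relIndex_self]; exact one_dvd _)
  exact h.pow_of_commute_two (orderOf_two_of_mem h T ht ht1)
    (Subgroup.mem_centralizer_iff.1 hx.2 t ht) hxo

/-- A fixed element of a hyperplane outside a given subgroup. -/
theorem exists_fixed_hyperplane {X D : Subgroup G} (hX : TInv p (T : Subgroup G) X) (hXD : ¬ X ≤ D) :
    ∃ U : Subgroup G, U ≤ (T : Subgroup G) ∧ U.relIndex (T : Subgroup G) ∣ 2 ∧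
      ∃ x ∈ X, x ∉ D ∧ ∀ u ∈ U, Commute u x := by
  haveI : Fact (Nat.Prime 2) := ⟨Nat.prime_two⟩
  have hgen := Hyperplane.le_iSup_centralizer (isElementaryAbelian_sylow h T) (X := X) (fun h2 => by
    obtain ⟨x, hx⟩ := exists_prime_orderOf_dvd_card' (G := ↥X) 2 h2
    have := odd_orderOf_of_isPGroup h.prime h.odd hX.1 x.2
    rw [Subgroup.orderOf_coe, hx] at this
    exact Nat.not_even_iff_odd.2 this even_two) hX.2
  by_contra hno
  refine hXD (hgen.trans (iSup_le fun U x hx => ?_))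
  by_contra hxD
  exact hno ⟨U.1, U.2.1, U.2.2, x, hx.1, hxD, fun u hu => Subgroup.mem_centralizer_iff.1 hx.2 u hu⟩

/-- A subgroup of odd order normalised by `T` is a `p`-group. -/
theorem isPGroup_of_odd (h4 : 4 ≤ Nat.card (T : Subgroup G)) {K : Subgroup G}
    (hTK : (T : Subgroup G) ≤ Subgroup.normalizer (K : Set G)) (hK : Odd (Nat.card K)) :
    IsPGroup p K := by
  haveI : Fact (Nat.Prime 2) := ⟨Nat.prime_two⟩
  haveI : Fact p.Prime := ⟨h.prime⟩
  have hsub : ∀ r, r.Prime → r ∣ Nat.card K → r = p := by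
    intro r hr hd
    by_contra hne
    haveI := Fact.mk hr
    obtain ⟨k, hk⟩ := card_sylow_two_pow h T
    obtain ⟨P, hP⟩ := Coprime.exists_invariant_sylow (p := r) hTK
      (by rw [hk]; exact (Nat.coprime_two_left.2 hK).pow_left k)
      (Or.inl (by haveI := T.2.isNilpotent; infer_instance))
    set X := (P : Subgroup K).map K.subtype with hX
    have hXodd : ¬ 2 ∣ Nat.card X := fun h2 => Nat.not_even_iff_odd.2 hK (even_iff_two_dvd.2
      (h2.trans (Subgroup.card_dvd_of_le (Subgroup.map_subtype_le _))))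
    have hbot : X = ⊥ := by
      rw [eq_bot_iff]
      refine (Hyperplane.le_iSup_centralizer (isElementaryAbelian_sylow h T) hXodd hP).trans
        (iSup_le fun U x hx => ?_)
      obtain ⟨u, hu, hu1⟩ := exists_ne_one_of_dvd_two h T h4 U.2.2
      have hxo : Odd (orderOf x) := Odd.of_dvd_nat hK
        (Subgroup.orderOf_dvd_natCard K (Subgroup.map_subtype_le _ hx.1))
      have h1 := orderOf_dvd_of_pow_eq_one (h.pow_of_commute_two
        (orderOf_two_of_mem h T (U.2.1 hu) hu1) (Subgroup.mem_centralizer_iff.1 hx.2 u hu) hxo)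
      obtain ⟨j, hj⟩ := IsPGroup.iff_orderOf.1 (P.2.map K.subtype) ⟨x, hx.1⟩
      rw [Subgroup.orderOf_mk] at hj
      rw [Subgroup.mem_bot, ← orderOf_eq_one_iff]
      exact Nat.eq_one_of_dvd_coprimes (((Nat.coprime_primes hr h.prime).2 hne).pow_left j)
        (dvd_of_eq hj) h1
    rw [hX, Subgroup.map_eq_bot_iff_of_injective _ K.subtype_injective] at hbot
    exact P.ne_bot_of_dvd_card hd hbot
  exact IsPGroup.of_card (n := (Nat.card K).primeFactorsList.length)
    (Nat.eq_prime_pow_of_unique_prime_dvd Nat.card_pos.ne' fun {d} hd hdvd => hsub d hd hdvd)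

/-- An element normalising but not centralising a four group Sylow subgroup yields a cyclic
permutation, and then `T` centralises every invariant `p`-subgroup it normalises. -/
theorem le_centralizer_of_cycle (hc4 : Nat.card (T : Subgroup G) = 4) {D : Subgroup G}
    (hD : TInv p (T : Subgroup G) D) {g : G}
    (hgT : g ∈ Subgroup.normalizer ((T : Subgroup G) : Set G))
    (hgD : g ∈ Subgroup.normalizer (D : Set G))
    (hg : g ∉ Subgroup.centralizer ((T : Subgroup G) : Set G)) :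
    (T : Subgroup G) ≤ Subgroup.centralizer (D : Set G) := by
  classical
  haveI : Fact (Nat.Prime 2) := ⟨Nat.prime_two⟩
  haveI : Fact p.Prime := ⟨h.prime⟩
  have hsq := h.sylow_sq T
  set CT := Subgroup.centralizer ((T : Subgroup G) : Set G) with hCT
  -- the odd part of `g`
  obtain ⟨k, m, hm, hkm⟩ := Nat.exists_eq_two_pow_mul_odd (orderOf_pos g).ne'
  set y0 := g ^ (2 ^ k) with hy0
  have hy0T : y0 ∈ Subgroup.normalizer ((T : Subgroup G) : Set G) := pow_mem hgT _
  have hy0o : orderOf y0 = m := by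
    rw [hy0, orderOf_pow' _ (by positivity), hkm, Nat.gcd_eq_right (dvd_mul_right _ _),
      Nat.mul_div_cancel_left _ (by positivity)]
  have hy0c : y0 ∉ CT := by
    intro hc
    have hu : g ^ m ∈ (T : Subgroup G) := by
      have h1 : IsPGroup 2 (Subgroup.zpowers (g ^ m)) := by
        have hd : (g ^ m) ^ (2 ^ k) = 1 := by rw [← pow_mul, mul_comm, ← hkm, pow_orderOf_eq_one]
        obtain ⟨i, -, hi⟩ := (Nat.dvd_prime_pow Nat.prime_two).1 (orderOf_dvd_of_pow_eq_one hd)
        exact IsPGroup.of_card (n := i) (by rw [Nat.card_zpowers, hi])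
      rw [← T.3 (h1.to_sup_of_normal_right' T.2 (Subgroup.zpowers_le.2 (pow_mem hgT m))) le_sup_right]
      exact Subgroup.mem_sup_left (Subgroup.mem_zpowers _)
    have huC : g ^ m ∈ CT :=
      Subgroup.mem_centralizer_iff.2 fun b hb => (commute_of_sq h.prime h.odd hsq hb hu).eq
    refine hg ?_
    have hco : Int.gcd (2 ^ k : ℕ) (m : ℕ) = 1 := by
      rw [Int.gcd_natCast_natCast]; exact (Nat.coprime_two_left.2 hm).pow_left k
    have := Int.gcd_eq_gcd_ab (2 ^ k : ℕ) (m : ℕ)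
    rw [hco, Nat.cast_one] at this
    rw [← zpow_one g, this, zpow_add, zpow_mul, zpow_mul, zpow_natCast, zpow_natCast]
    exact mul_mem (zpow_mem hc _) (zpow_mem huC _)
  -- its cube centralises `T`
  have hy03 : y0 ^ 3 ∈ CT := by
    set X := {x : ↥(T : Subgroup G) // x ≠ 1}
    haveI := Fintype.ofFinite ↥(T : Subgroup G)
    set φ : MulAut ↥(T : Subgroup G) := Subgroup.normalizerMonoidHom _ ⟨y0, hy0T⟩ with hφ
    set π : Equiv.Perm X := φ.toEquiv.subtypeEquiv (fun x => by simp) with hπ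
    have hcard : Nat.card (Equiv.Perm X) = 6 := by
      rw [Nat.card_perm, Nat.card_eq_fintype_card, Fintype.card_subtype_compl,
        ← Nat.card_eq_fintype_card, hc4, Fintype.card_subtype_eq]
      rfl
    have hπ6 : π ^ 6 = 1 := by rw [← hcard]; exact pow_card_eq_one'
    have hiter : ∀ (n : ℕ) (x : X), (((π ^ n) x).1 : G) = y0 ^ n * x.1 * (y0 ^ n)⁻¹ := by
      intro n
      induction n with
      | zero => intro x; simp
      | succ n ih =>
        intro x
        rw [pow_succ', Equiv.Perm.mul_apply]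
        show y0 * (((π ^ n) x).1 : G) * y0⁻¹ = _
        rw [ih x, pow_succ' y0, mul_inv_rev]
        group
    have h6 : y0 ^ 6 ∈ CT := by
      rw [hCT, Subgroup.mem_centralizer_iff]
      intro t ht
      rcases eq_or_ne t 1 with rfl | ht1
      · simp
      have := hiter 6 ⟨⟨t, ht⟩, fun e => ht1 (congrArg Subtype.val e)⟩
      rw [hπ6] at this
      exact (mul_inv_eq_iff_eq_mul.1 this.symm).symm
    obtain ⟨l, hl⟩ := hy0o ▸ hm
    have e : y0 ^ 3 = (y0 ^ 6) ^ (l + 1) := by
      calc y0 ^ 3 = (y0 ^ orderOf y0) ^ 3 * y0 ^ 3 := by rw [pow_orderOf_eq_one, one_pow, one_mul]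
        _ = y0 ^ (orderOf y0 * 3 + 3) := by rw [pow_add, pow_mul]
        _ = y0 ^ (6 * (l + 1)) := by congr 1; omega
        _ = (y0 ^ 6) ^ (l + 1) := pow_mul _ _ _
    rw [e]; exact pow_mem h6 _
  obtain ⟨t, ht, ht1⟩ := exists_ne_one_of_dvd_two h T (by omega) (U := (T : Subgroup G))
    (by rw [Subgroup.relIndex_self]; exact one_dvd _)
  have hy03p : (y0 ^ 3) ^ p = 1 := h.pow_of_commute_two (orderOf_two_of_mem h T ht ht1)
    (Subgroup.mem_centralizer_iff.1 hy03 t ht) ((hy0o ▸ hm).of_dvd_nat (orderOf_pow_dvd 3))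
  obtain ⟨y, hyT, hyD, hyc, hy3⟩ : ∃ y, y ∈ Subgroup.normalizer ((T : Subgroup G) : Set G) ∧
      y ∈ Subgroup.normalizer (D : Set G) ∧ y ∉ CT ∧ y ^ 3 = 1 := by
    by_cases hp3 : p = 3
    · refine ⟨y0, hy0T, pow_mem hgD _, hy0c, ?_⟩
      by_contra hne
      have h3 : p ∣ orderOf y0 := by
        have := orderOf_eq_prime hy03p hne
        exact this ▸ orderOf_pow_dvd 3
      have := pow_eq_one_of_odd (hy0o ▸ hm) (h.self y0 h3)
      rw [hp3] at this
      exact hne this
    · refine ⟨y0 ^ p, pow_mem hy0T _, pow_mem (pow_mem hgD _) _, fun hc => hy0c ?_, ?_⟩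
      · have hco : Int.gcd (p : ℕ) (3 : ℕ) = 1 := by
          rw [Int.gcd_natCast_natCast]; exact (Nat.coprime_primes h.prime Nat.prime_three).2 hp3
        have := Int.gcd_eq_gcd_ab (p : ℕ) (3 : ℕ)
        rw [hco, Nat.cast_one] at this
        rw [← zpow_one y0, this, zpow_add, zpow_mul, zpow_mul, zpow_natCast, zpow_natCast]
        exact mul_mem (zpow_mem hc _) (zpow_mem hy03 _)
      · rw [← pow_mul, mul_comm, pow_mul]; exact hy03p
  -- the cycle
  obtain ⟨a, ha, hay⟩ : ∃ a ∈ (T : Subgroup G), y * a * y⁻¹ ≠ a := by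
    by_contra hno
    refine hyc (Subgroup.mem_centralizer_iff.2 fun b hb => ?_)
    have : y * b * y⁻¹ = b := by
      by_contra hne
      exact hno ⟨b, hb, hne⟩
    exact (mul_inv_eq_iff_eq_mul.1 this).symm
  set b := y * a * y⁻¹ with hb
  have hbT : b ∈ (T : Subgroup G) := (Subgroup.mem_normalizer_iff.1 hyT a).1 ha
  have ha1 : a ≠ 1 := by rintro rfl; exact hay (by simp [hb])
  have hb1 : b ≠ 1 := fun e => ha1 (conj_eq_one_iff.1 e)
  have hcom := commute_of_sq h.prime h.odd hsq ha hbT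
  have hab1 : a * b ≠ 1 := fun e => hay (by
    rw [← inv_eq_of_mul_eq_one_right e, inv_eq_of_mul_eq_one_right (hsq a ha)])
  have hT4 : ∀ x ∈ (T : Subgroup G), x = 1 ∨ x = a ∨ x = b ∨ x = a * b := by
    intro x hx
    haveI := Fintype.ofFinite ↥(T : Subgroup G)
    by_contra hno
    simp only [not_or] at hno
    obtain ⟨n1, n2, n3, n4⟩ := hno
    set s : Finset ↥(T : Subgroup G) :=
      {1, ⟨a, ha⟩, ⟨b, hbT⟩, ⟨a * b, mul_mem ha hbT⟩, ⟨x, hx⟩} with hs
    have hle := Finset.card_le_univ s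
    rw [← Nat.card_eq_fintype_card, hc4] at hle
    have h5 : s.card = 5 := by
      rw [hs, Finset.card_insert_of_notMem, Finset.card_insert_of_notMem,
        Finset.card_insert_of_notMem, Finset.card_insert_of_notMem, Finset.card_singleton]
      all_goals simp only [Finset.mem_insert, Finset.mem_singleton, Subtype.ext_iff,
        Subgroup.coe_one, not_or]
      all_goals refine ?_
      · exact fun e => n4 e.symm
      · exact ⟨fun e => ha1 (mul_eq_right.1 e.symm), fun e => n3 e.symm⟩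
      · exact ⟨fun e => hay e.symm, fun e => hb1 (mul_eq_left.1 e.symm), fun e => n2 e.symm⟩
      · exact ⟨Ne.symm ha1, Ne.symm hb1, Ne.symm hab1, fun e => n1 e.symm⟩
    omega
  have hyb : y * b * y⁻¹ = a * b := by
    rcases hT4 _ ((Subgroup.mem_normalizer_iff.1 hyT b).1 hbT) with e | e | e | e
    · exact absurd (conj_eq_one_iff.1 e) hb1
    · exfalso
      refine hay ?_
      calc y * a * y⁻¹ = y * (y * b * y⁻¹) * y⁻¹ := by rw [e]
        _ = y ^ 3 * a * (y ^ 3)⁻¹ := by rw [hb]; simp [pow_succ, mul_assoc]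
        _ = a := by rw [hy3]; simp
    · exact absurd (mul_left_cancel (mul_right_cancel (e.trans hb)) : b = a) hay
    · exact e
  have hodd : ∀ x ∈ D, Odd (orderOf x) := fun x hx => odd_orderOf_of_isPGroup h.prime h.odd hD.1 hx
  have hcyc : ∀ v ∈ D, (v * y) ^ 3 = 1 := by
    intro v hv
    have hmem : ∀ n : ℕ, (v * y) ^ n * (y ^ n)⁻¹ ∈ D := by
      intro n
      induction n with
      | zero => simp
      | succ n ih =>
        have e : (v * y) ^ (n + 1) * (y ^ (n + 1))⁻¹ =
            ((v * y) ^ n * (y ^ n)⁻¹) * (y ^ n * v * (y ^ n)⁻¹) := by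
          rw [pow_succ, pow_succ y, mul_inv_rev]; group
        rw [e]
        exact mul_mem ih ((Subgroup.mem_normalizer_iff.1 (pow_mem hyD n) v).1 hv)
    have h3 : (v * y) ^ 3 ∈ D := by simpa [hy3] using hmem 3
    by_contra hne
    obtain ⟨j, hj⟩ := IsPGroup.iff_orderOf.1 hD.1 ⟨_, h3⟩
    rw [Subgroup.orderOf_mk] at hj
    have hj0 : j ≠ 0 := by rintro rfl; exact hne (orderOf_eq_one_iff.1 (by rw [hj, pow_zero]))
    have hx := h.self (v * y) ((hj ▸ dvd_pow_self p hj0).trans (orderOf_pow_dvd 3))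
    by_cases hp3 : p = 3
    · subst hp3
      refine hne (orderOf_eq_one_iff.1 (Nat.eq_one_of_dvd_coprimes
        (Nat.coprime_two_right.2 (hodd _ h3)) dvd_rfl (orderOf_dvd_of_pow_eq_one ?_)))
      rw [← pow_mul]; exact hx
    · have h2p := hmem (2 * p)
      rw [hx, one_mul, inv_mem_iff] at h2p
      obtain ⟨i, hi⟩ := IsPGroup.iff_orderOf.1 hD.1 ⟨_, h2p⟩
      rw [Subgroup.orderOf_mk] at hi
      have hy2p : y ^ (2 * p) = 1 := orderOf_eq_one_iff.1 (Nat.eq_one_of_dvd_coprimes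
        (((Nat.coprime_primes h.prime Nat.prime_three).2 hp3).pow_left i) (dvd_of_eq hi)
        ((orderOf_pow_dvd _).trans (orderOf_dvd_of_pow_eq_one hy3)))
      refine hyc ?_
      have : y = 1 := orderOf_eq_one_iff.1 (Nat.eq_one_of_dvd_coprimes
        (Nat.Coprime.mul_left (by norm_num : Nat.Coprime 2 3)
          ((Nat.coprime_primes h.prime Nat.prime_three).2 hp3))
        (orderOf_dvd_of_pow_eq_one hy2p) (orderOf_dvd_of_pow_eq_one hy3))
      rw [this]; exact one_mem _
  intro t ht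
  rw [Subgroup.mem_centralizer_iff]
  intro x hx
  have hTD : ∀ s ∈ (T : Subgroup G), ∀ z ∈ D, s * z * s ∈ D := fun s hs z hz => by
    have := (Subgroup.mem_normalizer_iff.1 (hD.2 hs) z).1 hz
    rwa [inv_eq_of_mul_eq_one_right (hsq s hs)] at this
  obtain ⟨hax, hbx⟩ := commute_of_cycle hodd (hsq a ha) (hsq b hbT) hcom (hTD a ha) (hTD b hbT)
    (fun z hz => (Subgroup.mem_normalizer_iff.1 hyD z).1 hz) hb.symm hyb hy3 hcyc hx
  rcases hT4 t ht with rfl | rfl | rfl | rfl
  · simp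
  · exact hax.symm.eq
  · exact hbx.symm.eq
  · exact (hax.mul_left hbx).symm.eq

/-- For a four group Sylow subgroup: if `T` does not centralise the invariant `D`, the invariant
`p`-subgroups of `N(D)` generate a `p`-group, and `N(D)` is it times `T`. -/
theorem exists_complement (hc4 : Nat.card (T : Subgroup G) = 4) {D : Subgroup G}
    (hD : TInv p (T : Subgroup G) D) (hDc : ¬ (T : Subgroup G) ≤ Subgroup.centralizer (D : Set G)) :
    ∃ K : Subgroup G, TInv p (T : Subgroup G) K ∧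
      (∀ x ∈ Subgroup.normalizer (D : Set G), Odd (orderOf x) → x ∈ K) ∧
      ∀ x ∈ Subgroup.normalizer (D : Set G), ∃ k ∈ K, ∃ t ∈ (T : Subgroup G), x = k * t := by
  haveI : Fact (Nat.Prime 2) := ⟨Nat.prime_two⟩
  set H := Subgroup.normalizer (D : Set G) with hH
  obtain ⟨N, hN, hNodd, k, hk⟩ := Cfsg.Agent.S0514.burnside (T.subtype hD.2) (by
    intro g hg
    rw [Subgroup.mem_centralizer_iff]
    intro s hs
    refine Subtype.ext ?_
    have hgT : (g : G) ∈ Subgroup.normalizer ((T : Subgroup G) : Set G) := by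
      have hg' := Subgroup.mem_normalizer_iff.1 hg
      rw [Subgroup.mem_normalizer_iff]
      intro x
      constructor
      · intro hx; exact (hg' ⟨x, hD.2 hx⟩).1 hx
      · intro hx
        have hxH : x ∈ H := by
          have := mul_mem (mul_mem (inv_mem g.2) (hD.2 hx)) g.2
          simpa [mul_assoc] using this
        exact (hg' ⟨x, hxH⟩).2 hx
    have hc : (g : G) ∈ Subgroup.centralizer ((T : Subgroup G) : Set G) := by
      by_contra hno
      exact hDc (le_centralizer_of_cycle h T hc4 hD hgT g.2 hno)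
    exact Subgroup.mem_centralizer_iff.1 hc (s : G) hs)
  haveI := hN
  have hTn : (T : Subgroup G) ≤ Subgroup.normalizer ((N.map H.subtype : Subgroup G) : Set G) := by
    intro t ht
    rw [Subgroup.mem_normalizer_iff]
    intro x
    constructor
    · rintro ⟨n, hn, rfl⟩
      exact ⟨⟨t, hD.2 ht⟩ * n * ⟨t, hD.2 ht⟩⁻¹, hN.conj_mem n hn _, rfl⟩
    · rintro ⟨n, hn, hnx⟩
      refine ⟨⟨t, hD.2 ht⟩⁻¹ * n * ⟨t, hD.2 ht⟩, ?_, ?_⟩
      · have := hN.conj_mem n hn (⟨t, hD.2 ht⟩⁻¹ : ↥H)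
        rwa [inv_inv] at this
      · show t⁻¹ * (n : G) * t = x
        rw [show (n : G) = t * x * t⁻¹ from hnx]
        group
  have hmem : ∀ x ∈ H, Odd (orderOf x) → x ∈ N.map H.subtype := fun x hx hxo => by
    refine ⟨⟨x, hx⟩, ?_, rfl⟩
    have h1 : orderOf (QuotientGroup.mk' N ⟨x, hx⟩) ∣ orderOf x :=
      (orderOf_map_dvd _ _).trans (dvd_of_eq (Subgroup.orderOf_mk _ _))
    have h2 : orderOf (QuotientGroup.mk' N ⟨x, hx⟩) ∣ 2 ^ k := hk ▸ orderOf_dvd_natCard _
    exact (QuotientGroup.eq_one_iff _).1 (orderOf_eq_one_iff.1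
      (Nat.eq_one_of_dvd_coprimes ((Nat.coprime_two_right.2 hxo).pow_right k) h1 h2))
  refine ⟨N.map H.subtype, ⟨isPGroup_of_odd h T (by omega) hTn (by
    rwa [Subgroup.card_map_of_injective H.subtype_injective]), hTn⟩, hmem, fun x hx => ?_⟩
  have htop : N ⊔ (T.subtype hD.2 : Subgroup ↥H) = ⊤ := by
    rw [← Subgroup.index_eq_one]
    refine Nat.eq_one_of_dvd_coprimes (a := 2 ^ k) (b := (T.subtype hD.2 : Subgroup ↥H).index) ?_
      (hk ▸ Subgroup.index_dvd_of_le le_sup_left) (Subgroup.index_dvd_of_le le_sup_right)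
    exact Nat.Coprime.pow_left _ (Nat.prime_two.coprime_iff_not_dvd.2 (T.subtype hD.2).not_dvd_index)
  have hx' : (⟨x, hx⟩ : ↥H) ∈ N ⊔ (T.subtype hD.2 : Subgroup ↥H) := htop ▸ Subgroup.mem_top _
  rw [← SetLike.mem_coe, Subgroup.normal_mul] at hx'
  obtain ⟨a, ha, t, ht, hat⟩ := hx'
  exact ⟨a, ⟨a, ha, rfl⟩, t, ht, congrArg Subtype.val hat.symm⟩

theorem exists_maximal {X : Subgroup G} (hX : TInv p (T : Subgroup G) X) :
    ∃ R, X ≤ R ∧ Maximal (TInv p (T : Subgroup G)) R :=
  Finite.exists_le_maximal hX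

theorem tInv_inf {X H : Subgroup G} (hX : TInv p (T : Subgroup G) X)
    (hH : (T : Subgroup G) ≤ Subgroup.normalizer (H : Set G)) :
    TInv p (T : Subgroup G) (X ⊓ H) := by
  refine ⟨hX.1.to_le inf_le_left, fun t ht => ?_⟩
  rw [Subgroup.mem_normalizer_iff_map_conj_eq, Subgroup.map_inf _ _ _ (MulAut.conj t).injective,
    Subgroup.mem_normalizer_iff_map_conj_eq.1 (hX.2 ht),
    Subgroup.mem_normalizer_iff_map_conj_eq.1 (hH ht)]

/-- Join of the invariant `p`-subgroups of `N(D)` through given elements. -/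
theorem exists_join (h4 : 4 ≤ Nat.card (T : Subgroup G)) {D R₁ R₂ : Subgroup G}
    (hD : TInv p (T : Subgroup G) D) (h1 : TInv p (T : Subgroup G) R₁)
    (h2 : TInv p (T : Subgroup G) R₂) (n1 : ¬ R₁ ⊓ Subgroup.normalizer (D : Set G) ≤ D)
    (n2 : ¬ R₂ ⊓ Subgroup.normalizer (D : Set G) ≤ D)
    (hcase : 8 ≤ Nat.card (T : Subgroup G) ∨ D ≠ ⊥) :
    ∃ L : Subgroup G, TInv p (T : Subgroup G) L ∧ D ≤ L ∧
      (∃ x ∈ R₁ ⊓ L, x ∉ D) ∧ ∃ x ∈ R₂ ⊓ L, x ∉ D := by
  haveI : Fact p.Prime := ⟨h.prime⟩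
  set H := Subgroup.normalizer (D : Set G) with hH
  have hTH : (T : Subgroup G) ≤ H := hD.2
  have hTHn : (T : Subgroup G) ≤ Subgroup.normalizer (H : Set G) := hTH.trans Subgroup.le_normalizer
  have hX1 := tInv_inf h T h1 hTHn
  have hX2 := tInv_inf h T h2 hTHn
  have hpick : ∀ {X L : Subgroup G}, ¬ X ≤ D → X ≤ L → ∃ x ∈ X ⊓ L, x ∉ D := fun {X L} hn hle => by
    obtain ⟨x, hx, hxD⟩ := SetLike.not_le_iff_exists.1 hn
    exact ⟨x, ⟨hx, hle hx⟩, hxD⟩
  have hsubX : ∀ {R L : Subgroup G}, R ⊓ H ⊓ L ≤ R ⊓ L := fun {R L} =>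
    inf_le_inf_right L inf_le_left
  rcases Nat.lt_or_ge (Nat.card (T : Subgroup G)) 8 with hlt | h8
  · have hD0 : D ≠ ⊥ := hcase.resolve_left (by omega)
    obtain ⟨k, hk⟩ := card_sylow_two_pow h T
    have hc4 : Nat.card (T : Subgroup G) = 4 := by
      have : k < 3 := (Nat.pow_lt_pow_iff_right (by norm_num : 1 < 2)).1 (by rw [← hk]; omega)
      interval_cases k <;> omega
    by_cases hDc : (T : Subgroup G) ≤ Subgroup.centralizer (D : Set G)
    · set C := Subgroup.centralizer (D : Set G) with hC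
      have hCn : Narrow p C := by
        intro x hx hxo
        obtain ⟨d, hd, hd1⟩ := D.bot_or_exists_ne_one.resolve_left hD0
        obtain ⟨t, ht, ht1⟩ := exists_ne_one_of_dvd_two h T h4 (U := (T : Subgroup G))
          (by rw [Subgroup.relIndex_self]; exact one_dvd _)
        refine h.pow_of_commute_self (h.pow_of_commute_two (orderOf_two_of_mem h T ht ht1)
          (Subgroup.mem_centralizer_iff.1 (hDc ht) d hd).symm
          (odd_orderOf_of_isPGroup h.prime h.odd hD.1 hd)) hd1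
          (Subgroup.mem_centralizer_iff.1 hx d hd) hxo
      have hHC : H ≤ Subgroup.normalizer (C : Set G) := by
        intro g hg
        rw [Subgroup.mem_normalizer_iff]
        intro x
        simp only [hC, Subgroup.mem_centralizer_iff]
        constructor <;> intro hx d hd
        · have := hx (g⁻¹ * d * g) ((Subgroup.mem_normalizer_iff.1 hg _).2 (by simpa [mul_assoc] using hd))
          calc d * (g * x * g⁻¹) = g * ((g⁻¹ * d * g) * x) * g⁻¹ := by group
            _ = g * (x * (g⁻¹ * d * g)) * g⁻¹ := by rw [this]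
            _ = g * x * g⁻¹ * d := by group
        · have := hx (g * d * g⁻¹) ((Subgroup.mem_normalizer_iff.1 hg d).1 hd)
          calc d * x = g⁻¹ * ((g * d * g⁻¹) * (g * x * g⁻¹)) * g := by group
            _ = g⁻¹ * ((g * x * g⁻¹) * (g * d * g⁻¹)) * g := by rw [this]
            _ = x * d := by group
      obtain ⟨L, -, hLT, -, hL⟩ := exists_top h.prime h.odd T (h.sylow_sq T) hCn hDc
        (Subgroup.centralizer_le_normalizer _) hHC (narrow_of_le_centralizer_sylow h T h4 H)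
      refine ⟨L, hLT, hL D hD Subgroup.le_normalizer, ?_, ?_⟩
      · obtain ⟨x, hx, hxD⟩ := hpick n1 (hL _ hX1 inf_le_right)
        exact ⟨x, hsubX hx, hxD⟩
      · obtain ⟨x, hx, hxD⟩ := hpick n2 (hL _ hX2 inf_le_right)
        exact ⟨x, hsubX hx, hxD⟩
    · obtain ⟨K, hKT, hK, -⟩ := exists_complement h T hc4 hD hDc
      have hle : ∀ X : Subgroup G, TInv p (T : Subgroup G) X → X ≤ H → X ≤ K := fun X hX hXH x hx =>
        hK x (hXH hx) (odd_orderOf_of_isPGroup h.prime h.odd hX.1 hx)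
      refine ⟨K, hKT, hle D hD Subgroup.le_normalizer, ?_, ?_⟩
      · obtain ⟨x, hx, hxD⟩ := hpick n1 (hle _ hX1 inf_le_right)
        exact ⟨x, hsubX hx, hxD⟩
      · obtain ⟨x, hx, hxD⟩ := hpick n2 (hle _ hX2 inf_le_right)
        exact ⟨x, hsubX hx, hxD⟩
  · obtain ⟨U₁, hU1, hi1, x₁, hx1, hx1D, hx1c⟩ := exists_fixed_hyperplane h T hX1 n1
    obtain ⟨U₂, hU2, hi2, x₂, hx2, hx2D, hx2c⟩ := exists_fixed_hyperplane h T hX2 n2
    obtain ⟨t, ⟨ht1, ht2⟩, htne⟩ : ∃ t ∈ U₁ ⊓ U₂, t ≠ 1 := by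
      refine (U₁ ⊓ U₂).bot_or_exists_ne_one.resolve_left fun e => ?_
      have hh := Subgroup.relIndex_inf_le (H := U₁) (K := U₂) (L := (T : Subgroup G))
      rw [e, Subgroup.relIndex_bot_left] at hh
      have a1 := Nat.le_of_dvd two_pos hi1
      have a2 := Nat.le_of_dvd two_pos hi2
      have := hh.trans (Nat.mul_le_mul a1 a2)
      omega
    have htT : t ∈ (T : Subgroup G) := hU1 ht1
    set C := Subgroup.centralizer ({t} : Set G) ⊓ H with hC
    have hTC : (T : Subgroup G) ≤ C := le_inf (sylow_le_centralizer_singleton h T htT) hTH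
    obtain ⟨L, hLC, hLT, -, hL⟩ := exists_top h.prime h.odd T (h.sylow_sq T)
      (C := C) (H := C) (fun x hx => h.narrow_centralizer (orderOf_two_of_mem h T htT htne) x hx.1)
      hTC le_rfl Subgroup.le_normalizer (narrow_of_le_centralizer_sylow h T h4 C)
    have hCn : (T : Subgroup G) ≤ Subgroup.normalizer (C : Set G) := hTC.trans Subgroup.le_normalizer
    refine ⟨D ⊔ L, ⟨hD.1.to_sup_of_normal_left' hLT.1 (hLC.trans inf_le_right), fun s hs => ?_⟩,
      le_sup_left, ⟨x₁, ⟨hx1.1, Subgroup.mem_sup_right ?_⟩, hx1D⟩,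
      ⟨x₂, ⟨hx2.1, Subgroup.mem_sup_right ?_⟩, hx2D⟩⟩
    · rw [Subgroup.mem_normalizer_iff_map_conj_eq, Subgroup.map_sup,
        Subgroup.mem_normalizer_iff_map_conj_eq.1 (hD.2 hs),
        Subgroup.mem_normalizer_iff_map_conj_eq.1 (hLT.2 hs)]
    · exact hL _ (tInv_inf h T hX1 hCn) inf_le_right
        ⟨hx1, Subgroup.mem_centralizer_singleton_iff.2 (hx1c t ht1).symm, hx1.2⟩
    · exact hL _ (tInv_inf h T hX2 hCn) inf_le_right
        ⟨hx2, Subgroup.mem_centralizer_singleton_iff.2 (hx2c t ht2).symm, hx2.2⟩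

/-- A `p`-group properly containing `D` has elements normalising `D` outside `D`. -/
theorem not_inf_normalizer_le {D R : Subgroup G} (hR : IsPGroup p R) (hDR : D ≤ R) (hne : D ≠ R) :
    ¬ R ⊓ Subgroup.normalizer (D : Set G) ≤ D := by
  intro hle
  haveI : Fact p.Prime := ⟨h.prime⟩
  haveI : Group.IsNilpotent ↥R := hR.isNilpotent
  have hnc := normalizerCondition_of_isNilpotent (G := ↥R)
  have hlt : D.subgroupOf R < ⊤ := lt_top_iff_ne_top.2 fun e =>
    hne (le_antisymm hDR (Subgroup.subgroupOf_eq_top.1 e))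
  refine (hnc _ hlt).2 fun x hx => ?_
  refine hle ⟨x.2, ?_⟩
  show (x : G) ∈ Subgroup.normalizer (D : Set G)
  rw [Subgroup.mem_normalizer_iff] at hx ⊢
  intro d
  constructor
  · intro hd; exact (hx ⟨d, hDR hd⟩).1 hd
  · intro hd
    have hdR : d ∈ R := by
      have := mul_mem (mul_mem (inv_mem x.2) (hDR hd)) x.2
      simpa [mul_assoc] using this
    exact (hx ⟨d, hdR⟩).2 hd

/-- **Transitivity.** -/
theorem maximal_eq (h4 : 4 ≤ Nat.card (T : Subgroup G)) {R₁ R₂ : Subgroup G}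
    (h1 : Maximal (TInv p (T : Subgroup G)) R₁) (h2 : Maximal (TInv p (T : Subgroup G)) R₂)
    (hcase : 8 ≤ Nat.card (T : Subgroup G) ∨ R₁ ⊓ R₂ ≠ ⊥) : R₁ = R₂ := by
  suffices hmain : ∀ n, ∀ R₁ R₂ : Subgroup G, Maximal (TInv p (T : Subgroup G)) R₁ →
      Maximal (TInv p (T : Subgroup G)) R₂ →
      (8 ≤ Nat.card (T : Subgroup G) ∨ R₁ ⊓ R₂ ≠ ⊥) →
      Nat.card G - Nat.card ↥(R₁ ⊓ R₂) = n → R₁ = R₂ from hmain _ R₁ R₂ h1 h2 hcase rfl
  intro n
  induction n using Nat.strong_induction_on with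
  | _ n ih =>
    intro R₁ R₂ h1 h2 hcase hn
    by_contra hne
    set D := R₁ ⊓ R₂ with hDdef
    have hD : TInv p (T : Subgroup G) D := tInv_inf h T h1.1 h2.1.2
    have d1 : D ≠ R₁ := fun e => hne (h1.eq_of_le h2.1 (inf_eq_left.1 e))
    have d2 : D ≠ R₂ := fun e => hne (h2.eq_of_le h1.1 (inf_eq_right.1 e)).symm
    obtain ⟨L, hL, hDL, ⟨x₁, hx1, hx1D⟩, x₂, hx2, hx2D⟩ := exists_join h T h4 hD h1.1 h2.1
      (not_inf_normalizer_le h h1.1.1 inf_le_left d1)
      (not_inf_normalizer_le h h2.1.1 inf_le_right d2) hcase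
    obtain ⟨R₃, hLR, h3⟩ := exists_maximal h T hL
    have key : ∀ R : Subgroup G, Maximal (TInv p (T : Subgroup G)) R → D ≤ R →
        ∀ x ∈ R ⊓ L, x ∉ D → R = R₃ := by
      intro R hR hDR x hx hxD
      have hlt : D < R ⊓ R₃ := lt_of_le_of_ne (le_inf hDR (hDL.trans hLR))
        fun e => hxD (e ▸ ⟨hx.1, hLR hx.2⟩)
      refine ih _ ?_ R R₃ hR h3 (Or.inr fun e => hxD ?_) rfl
      · have h5 : Nat.card D < Nat.card ↥(R ⊓ R₃) := by
          refine lt_of_le_of_ne (Subgroup.card_le_of_le hlt.le) fun e => hlt.ne ?_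
          exact Subgroup.eq_of_le_of_card_ge hlt.le e.ge
        have h6 := Subgroup.card_le_card_group (R ⊓ R₃)
        omega
      · have : x ∈ R ⊓ R₃ := ⟨hx.1, hLR hx.2⟩
        rw [e, Subgroup.mem_bot] at this
        rw [this]
        exact one_mem _
    exact hne ((key R₁ h1 inf_le_left x₁ hx1 hx1D).trans
      (key R₂ h2 inf_le_right x₂ hx2 hx2D).symm)

end CfsgLib.CITTwoP
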